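import Cfsg.Agent.H11.CyDefs

/-! Project CY (row S3256), chapter L8, the case `K` odd: the pieces. -/

set_option autoImplicit false

namespace Cfsg.Agent.H93.L8

open Subgroup MulAction Cfsg.Agent.H11.Cy

/-- facts on `L₂(8)` -/
structure F8 (M : Type) [Group M] : Prop where
  card : Nat.card M = 504
  simple : IsSimpleGroup M
  four : ∀ x : M, x ^ 4 = 1 → x ^ 2 = 1
  conj : ∀ a b : M, orderOf a = 2 → orderOf b = 2 → IsConj a b

/-- global 2-structure -/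
structure Gd (G : Type) [Group G] : Prop where
  conj : ∀ a b : G, orderOf a = 2 → orderOf b = 2 → IsConj a b
  four : ∀ x : G, x ^ 4 = 1 → x ^ 2 = 1
  cen : ∀ t s s' : G, orderOf t = 2 → orderOf s = 2 → orderOf s' = 2 → s ≠ t → s' ≠ t →
    s * t = t * s → s' * t = t * s' →
    ∃ g : G, g * t = t * g ∧ (g * s * g⁻¹ = s' ∨ g * s * g⁻¹ = s' * t)

section
variable {G : Type} [Group G] {Ω : Type} [MulAction G Ω]

/-- all line groups look like `L₂(8)` on 28 points, with centraliser of odd order -/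
def Ty (A : Ω → Subgroup G) : Prop := ∀ x y, x ≠ y →
  F8 (Fl A x y) ∧ (Ln A x y).ncard = 28 ∧ Odd (Nat.card (Kl A x y))

/-- index facts -/
def Idx (A : Ω → Subgroup G) : Prop := ∀ x y, x ≠ y →
  Nat.card (Hs G x y) = 2 * Nat.card (Kl A x y) ∧
  ∀ g ∈ normalizer (Fl A x y : Set G), (∃ k : ℕ, g ^ 2 ^ k = 1) → g ∈ Fl A x y

/-- one involution fixes two given points, and it does not centralise `A x` -/
def Fx (A : Ω → Subgroup G) : Prop := ∀ x y, x ≠ y → ∃ t : G, orderOf t = 2 ∧ t • x = x ∧ t • y = y ∧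
  t ∉ centralizer (A x : Set G) ∧ ∀ u : G, orderOf u = 2 → u • x = x → u • y = y → u = t

/-- two involutions interchange two given points -/
def Sw (G : Type) [Group G] (Ω : Type) [MulAction G Ω] : Prop :=
  ∀ x y : Ω, x ≠ y → {s : G | orderOf s = 2 ∧ s • x = y}.ncard = 2

end

/-- **F8** -/
def F8Stmt : Prop := ∀ (M : Type) [Group M], IsL2 M 8 → F8 M
/-- **IDX** -/
def IdxStmt : Prop := All fun _ _ _ _ p A => p = 3 → Eps A → Ty A → Idx A
/-- **FX** -/
def FxStmt : Prop := All fun _ _ _ _ p A => p = 3 → Eps A → Ty A → Idx A → Fx A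
/-- **SW** -/
def SwStmt : Prop := All fun G _ Ω _ p A => p = 3 → Eps A → Ty A → Idx A → Fx A → Sw G Ω
/-- **GD** -/
def GdStmt : Prop := All fun G _ Ω _ p A => p = 3 → Eps A → Ty A → Idx A → Fx A → Sw G Ω → Gd G
/-- **CNT** -/
def CntStmt : Prop := ∀ (G : Type) [Group G] [Finite G] (Ω : Type) [Finite Ω] [MulAction G Ω],
  Nontrivial Ω → (∀ x y : Ω, ∃ g : G, g • x = y) →
  (∀ a b : G, orderOf a = 2 → orderOf b = 2 → IsConj a b) →
  (∀ x y : Ω, x ≠ y → ∃ t : G, orderOf t = 2 ∧ t • x = x ∧ t • y = y ∧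
    ∀ u : G, orderOf u = 2 → u • x = x → u • y = y → u = t) →
  Sw G Ω → ∃ m : ℕ, {s : G | orderOf s = 2}.ncard + 1 = m ^ 2
/-- **TOUR** -/
def TourStmt : Prop := ∀ (G : Type) [Group G] [Finite G], Gd G → ∀ P : Sylow 2 G, Nat.card P ≤ 8
/-- **SIMP** -/
def SimpStmt : Prop := ∀ (G : Type) [Group G] [Finite G],
  (∀ N : Subgroup G, N.Normal → Group.IsSolvable N → N = ⊥) →
  (∀ a b : G, orderOf a = 2 → orderOf b = 2 → IsConj a b) → (∀ P : Sylow 2 G, Nat.card P ≤ 8) →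
  ∀ F : Subgroup G, F8 F → ∃ M : Subgroup G, M.Normal ∧ IsSimpleGroup M ∧ F ≤ M ∧
    ∀ s : G, orderOf s = 2 → s ∈ M
/-- **WAL** -/
def WalStmt : Prop := ∀ (M : Type) [Group M] [Finite M], IsSimpleGroup M →
  (∀ x : M, x ^ 4 = 1 → x ^ 2 = 1) → (∀ P : Sylow 2 M, Nat.card P ≤ 8) → 504 ∣ Nat.card M →
  (∃ m : ℕ, {s : M | orderOf s = 2}.ncard + 1 = m ^ 2) → Nat.card M = 504

/-- the case `K` odd -/
def OddK : Prop := All fun _ _ _ _ p A => Mc p A → Multi A → Ty8 p A →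
  (∀ x y, x ≠ y → Odd (Nat.card (Kl A x y))) → False

end Cfsg.Agent.H93.L8
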