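import Mathlib

set_option autoImplicit false

namespace Cfsg.Agent.H93

open Nat

theorem centralBinom_le_of_few_primes (n : ℕ) (n_large : 18 ≤ n) (T : Finset ℕ) (hT : T.card ≤ 3)
    (no_prime : ∀ p : ℕ, p.Prime → n < p → p ≤ 2 * n → p ∈ T) :
    centralBinom n ≤ (2 * n) ^ sqrt (2 * n) * 4 ^ (2 * n / 3) := by
  have n_pos : 0 < n := by omega
  have n2_pos : 1 ≤ 2 * n := mul_pos (zero_lt_two' ℕ) n_pos
  let S := {p ∈ Finset.range (2 * n / 3 + 1) | Nat.Prime p}
  let f x := x ^ n.centralBinom.factorization x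
  have hf : ∀ p, f p ≤ 2 * n := fun p => pow_factorization_choose_le (mul_pos two_pos n_pos)
  have hf1 : ∀ p, 1 ≤ f p := fun p => by
    by_cases hp : p.Prime
    · exact Nat.one_le_pow _ _ hp.pos
    · simp only [f]
      rw [factorization_eq_zero_of_not_prime n.centralBinom hp, Nat.pow_zero]
  let T' := T.filter (fun x => n < x ∧ x ≤ 2 * n)
  have hdisj : Disjoint T' S := by
    rw [Finset.disjoint_left]
    intro x hx hx'
    have h1 := (Finset.mem_filter.1 hx).2
    have h2 := Finset.mem_range.1 (Finset.mem_filter.1 hx').1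
    omega
  have h1 : centralBinom n = (∏ x ∈ T', f x) * ∏ x ∈ S, f x := by
    rw [← Finset.prod_union hdisj]
    refine (Eq.trans ?_ n.prod_pow_factorization_centralBinom).symm
    apply Finset.prod_subset
    · intro x hx
      rcases Finset.mem_union.1 hx with hx | hx
      · have h1 := (Finset.mem_filter.1 hx).2
        simp; omega
      · have := Finset.mem_range.1 (Finset.mem_filter.1 hx).1
        simp; omega
    intro x hx h2x
    rw [Finset.mem_range, Nat.lt_succ_iff] at hx
    simp only [S, T', Finset.mem_union, Finset.mem_filter, Finset.mem_range, not_or, not_and] at h2x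
    by_cases h : x.Prime
    · have h3 : ¬ x < 2 * n / 3 + 1 := fun h' => h2x.2 h' h
      have h4 : x ≤ n := by
        by_contra h5
        exact h2x.1 (no_prime x h (by omega) hx) (by omega) hx
      simp only [f]
      rw [factorization_centralBinom_of_two_mul_self_lt_three_mul (by omega) h4 (by omega),
        Nat.pow_zero]
    · simp only [f]
      rw [factorization_eq_zero_of_not_prime n.centralBinom h, Nat.pow_zero]
  rw [h1, ← Finset.prod_filter_mul_prod_filter_not S (· ≤ sqrt (2 * n)), ← mul_assoc]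
  apply mul_le_mul'
  · have hs : 6 ≤ sqrt (2 * n) := Nat.le_sqrt.2 (by omega)
    have h2 : ∏ x ∈ S with x ≤ sqrt (2 * n), f x ≤ (2 * n) ^ (sqrt (2 * n) - 3) := by
      refine (Finset.prod_le_prod' fun p _ => hf p).trans ?_
      have : (((Finset.Icc 2 (sqrt (2 * n))).erase 4).erase 6).card = sqrt (2 * n) - 3 := by
        rw [Finset.card_erase_of_mem, Finset.card_erase_of_mem, card_Icc]
        · omega
        · simp; omega
        · simp; omega
      rw [Finset.prod_const]
      refine pow_right_mono₀ n2_pos ((Finset.card_le_card fun x hx => ?_).trans this.le)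
      obtain ⟨h1, h2⟩ := Finset.mem_filter.1 hx
      have hp := (Finset.mem_filter.1 h1).2
      refine Finset.mem_erase.2 ⟨?_, Finset.mem_erase.2 ⟨?_, Finset.mem_Icc.mpr ⟨hp.two_le, h2⟩⟩⟩
      · rintro rfl; norm_num at hp
      · rintro rfl; norm_num at hp
    have h3 : ∏ x ∈ T', f x ≤ (2 * n) ^ 3 := by
      refine (Finset.prod_le_prod' fun p _ => hf p).trans ?_
      rw [Finset.prod_const]
      exact pow_right_mono₀ n2_pos ((Finset.card_filter_le _ _).trans hT)
    calc _ ≤ (2 * n) ^ 3 * (2 * n) ^ (sqrt (2 * n) - 3) := Nat.mul_le_mul h3 h2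
      _ = _ := by rw [← _root_.pow_add, Nat.add_sub_cancel' (by omega)]
  · refine le_trans ?_ (primorial_le_four_pow (2 * n / 3))
    refine (Finset.prod_le_prod' fun p hp => (?_ : f p ≤ p)).trans ?_
    · obtain ⟨h1, h2⟩ := Finset.mem_filter.1 hp
      refine (pow_right_mono₀ (Finset.mem_filter.1 h1).2.one_lt.le ?_).trans (pow_one p).le
      exact Nat.factorization_choose_le_one (sqrt_lt'.mp <| not_le.1 h2)
    refine Finset.prod_le_prod_of_subset_of_one_le' (Finset.filter_subset _ _) ?_
    exact fun p hp _ => (Finset.mem_filter.1 hp).2.one_lt.le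

theorem exists_two_primes_of_large (n : ℕ) (hn : 512 ≤ n) :
    ∃ p q : ℕ, p.Prime ∧ q.Prime ∧ n < p ∧ p + 3 ≤ q ∧ q ≤ 2 * n := by
  classical
  by_contra hcon
  push Not at hcon
  have hex : ∃ p, p.Prime ∧ n < p := by
    obtain ⟨p, h1, h2⟩ := Nat.exists_infinite_primes (n + 1)
    exact ⟨p, h2, h1⟩
  let p0 := Nat.find hex
  have hp0 : p0.Prime ∧ n < p0 := Nat.find_spec hex
  have hmin : ∀ p, p.Prime → n < p → p0 ≤ p := fun p h1 h2 => Nat.find_min' hex ⟨h1, h2⟩
  have h1 : 4 ^ n < n * n.centralBinom := Nat.four_pow_lt_mul_centralBinom n (by omega)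
  have h2 : n.centralBinom ≤ (2 * n) ^ sqrt (2 * n) * 4 ^ (2 * n / 3) := by
    refine centralBinom_le_of_few_primes n (by omega) {p0, p0 + 1, p0 + 2} Finset.card_le_three ?_
    intro p hp h1 h2
    have h3 := hmin p hp h1
    have h4 : ¬ p0 + 3 ≤ p := fun h => by
      have := hcon p0 p hp0.1 hp hp0.2 h
      omega
    simp; omega
  have h3 := bertrand_main_inequality hn
  have h4 : n * n.centralBinom ≤ n * ((2 * n) ^ sqrt (2 * n) * 4 ^ (2 * n / 3)) :=
    Nat.mul_le_mul_left _ h2
  rw [← mul_assoc] at h4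
  omega

/-- For `m ≥ 17` there are primes `p`, `q` with `m < 2 p` and `p + 3 ≤ q ≤ m`. -/
theorem exists_two_primes (m : ℕ) (hm : 17 ≤ m) :
    ∃ p q : ℕ, p.Prime ∧ q.Prime ∧ m < 2 * p ∧ p + 3 ≤ q ∧ q ≤ m := by
  by_cases h0 : 1024 ≤ m
  · obtain ⟨p, q, hp, hq, h1, h2, h3⟩ := exists_two_primes_of_large (m / 2) (by omega)
    exact ⟨p, q, hp, hq, by omega, h2, by omega⟩
  by_cases h1 : 701 ≤ m
  · exact ⟨691, 701, by norm_num, by norm_num, by omega, by omega, by omega⟩
  by_cases h2 : 359 ≤ m
  · exact ⟨353, 359, by norm_num, by norm_num, by omega, by omega, by omega⟩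
  by_cases h3 : 191 ≤ m
  · exact ⟨181, 191, by norm_num, by norm_num, by omega, by omega, by omega⟩
  by_cases h4 : 103 ≤ m
  · exact ⟨97, 103, by norm_num, by norm_num, by omega, by omega, by omega⟩
  by_cases h5 : 59 ≤ m
  · exact ⟨53, 59, by norm_num, by norm_num, by omega, by omega, by omega⟩
  by_cases h6 : 37 ≤ m
  · exact ⟨31, 37, by norm_num, by norm_num, by omega, by omega, by omega⟩
  by_cases h7 : 23 ≤ m
  · exact ⟨19, 23, by norm_num, by norm_num, by omega, by omega, by omega⟩
  by_cases h8 : 22 ≤ m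
  · exact ⟨13, 17, by norm_num, by norm_num, by omega, by omega, by omega⟩
  exact ⟨11, 17, by norm_num, by norm_num, by omega, by omega, by omega⟩

end Cfsg.Agent.H93
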